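import Cfsg.Agent.SL2Char.Family
import Cfsg.Agent.GL2Char.Basic

/-!
# Dilation of `SL(2, q)` by `diag (ν, 1)` and values of the principal series
-/

set_option autoImplicit false
set_option linter.unusedSectionVars false

namespace Cfsg.Agent.SL2Val

open Cfsg
open Cfsg.Agent.CentralExt.SL2 (upper upperHom diag)
open Cfsg.Agent.Spec.Principal (borel lift mem_borel)
open Cfsg.Agent.SL2Char (coef mult mult_spec psi ps)
open scoped MatrixGroups ComplexConjugate

variable {F : Type*} [Field F]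

local notation "G" => SL(2, F)
local notation "q" => Fintype.card F
local notation "M2" => Matrix (Fin 2) (Fin 2) F

/-- Conjugation by `diag (ν, 1)`. -/
noncomputable def dil (ν : Fˣ) : G ≃* G where
  toFun g := ⟨!![(g : M2) 0 0, (ν : F) * (g : M2) 0 1; (↑ν⁻¹ : F) * (g : M2) 1 0, (g : M2) 1 1], by
    have := Linear.slTwo_det g
    have hν : (ν : F) * (↑ν⁻¹ : F) = 1 := Units.mul_inv ν
    rw [Matrix.det_fin_two_of]
    linear_combination this - (g : M2) 0 1 * (g : M2) 1 0 * hν⟩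
  invFun g := ⟨!![(g : M2) 0 0, (↑ν⁻¹ : F) * (g : M2) 0 1; (ν : F) * (g : M2) 1 0, (g : M2) 1 1], by
    have := Linear.slTwo_det g
    have hν : (ν : F) * (↑ν⁻¹ : F) = 1 := Units.mul_inv ν
    rw [Matrix.det_fin_two_of]
    linear_combination this - (g : M2) 0 1 * (g : M2) 1 0 * hν⟩
  left_inv g := Linear.slTwo_ext rfl (by simp) (by simp) rfl
  right_inv g := Linear.slTwo_ext rfl (by simp) (by simp) rfl
  map_mul' g h := by
    have hν : (ν : F) ≠ 0 := ν.ne_zero
    apply Subtype.ext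
    show (!![((g * h : G) : M2) 0 0, (ν : F) * ((g * h : G) : M2) 0 1;
        (↑ν⁻¹ : F) * ((g * h : G) : M2) 1 0, ((g * h : G) : M2) 1 1] : M2) =
      !![(g : M2) 0 0, (ν : F) * (g : M2) 0 1; (↑ν⁻¹ : F) * (g : M2) 1 0, (g : M2) 1 1] *
        !![(h : M2) 0 0, (ν : F) * (h : M2) 0 1; (↑ν⁻¹ : F) * (h : M2) 1 0, (h : M2) 1 1]
    simp only [Matrix.SpecialLinearGroup.coe_mul, Matrix.mul_fin_two, Matrix.mul_apply,
      Fin.sum_univ_two]
    ext i j
    fin_cases i <;> fin_cases j <;> simp <;> field_simp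

theorem coe_dil (ν : Fˣ) (g : G) :
    ((dil ν g : G) : M2) =
      !![(g : M2) 0 0, (ν : F) * (g : M2) 0 1; (↑ν⁻¹ : F) * (g : M2) 1 0, (g : M2) 1 1] := rfl

theorem toGL_dil (ν : Fˣ) (g : G) :
    Matrix.SpecialLinearGroup.toGL (dil ν g) =
      Linear.triGL ν 1 0 * Matrix.SpecialLinearGroup.toGL g * (Linear.triGL ν 1 0)⁻¹ := by
  rw [eq_mul_inv_iff_mul_eq]
  apply Units.ext
  have hν : (ν : F) ≠ 0 := ν.ne_zero
  simp only [Units.val_mul]
  show (dil ν g : M2) * _ = _ * (g : M2)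
  rw [coe_dil, Linear.triGL_val]
  ext i j
  fin_cases i <;> fin_cases j <;> simp [Matrix.mul_apply, Fin.sum_univ_two] <;> field_simp

theorem dil_upper (ν : Fˣ) (x : F) : dil ν (upper x : G) = upper ((ν : F) * x) :=
  Linear.slTwo_ext (by rw [coe_dil]; simp [upper]) (by rw [coe_dil]; simp [upper])
    (by rw [coe_dil]; simp [upper]) (by rw [coe_dil]; simp [upper])

variable [Fintype F]

/-- The character `g ↦ χ (dil ν g)`. -/
noncomputable def twist (ν : Fˣ) (χ : IrrCharacter G) : IrrCharacter G :=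
  ⟨(χ : G → ℂ) ∘ dil ν, Char.isIrrCharacter_comp_mulEquiv χ.2 (dil ν)⟩

theorem twist_one (ν : Fˣ) (χ : IrrCharacter G) :
    (twist ν χ : G → ℂ) 1 = (χ : G → ℂ) 1 := congrArg (χ : G → ℂ) (map_one (dil ν))

theorem mult_twist (ν : Fˣ) (χ : IrrCharacter G) (c : F) :
    mult (twist ν χ) c = mult χ ((ν : F) * c) := by
  rw [show (ν : F) * c = (ν : F) ^ 2 * ((↑ν⁻¹ : F) * c) by
    rw [sq, ← mul_assoc, mul_assoc (ν : F), Units.mul_inv, mul_one], SL2Char.mult_sq_mul]
  apply Nat.cast_injective (R := ℂ)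
  rw [← mult_spec, ← mult_spec, coef, coef]
  congr 1
  refine Fintype.sum_equiv (Equiv.mulLeft₀ (ν : F) ν.ne_zero) _ _ fun x => ?_
  simp only [Equiv.mulLeft₀_apply, twist, Function.comp_apply, dil_upper]
  congr 2
  rw [mul_mul_mul_comm, Units.inv_mul, one_mul]

/-- Fourier inversion on the upper unitriangular subgroup. -/
theorem apply_upper_eq (χ : IrrCharacter G) (x : F) :
    (χ : G → ℂ) (upper x) = ∑ c : F, (mult χ c : ℂ) * psi F (c * x) := by
  classical
  simp only [← mult_spec, coef, Finset.mul_sum, Finset.sum_mul]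
  rw [Finset.sum_comm]
  have h : ∀ y : F, ∑ c : F, (q : ℂ)⁻¹ * ((χ : G → ℂ) (upper y) * psi F (-(c * y))) * psi F (c * x) =
      if y = x then (χ : G → ℂ) (upper y) else 0 := by
    intro y
    have h1 : ∀ c : F, (q : ℂ)⁻¹ * ((χ : G → ℂ) (upper y) * psi F (-(c * y))) * psi F (c * x) =
        (q : ℂ)⁻¹ * (χ : G → ℂ) (upper y) * psi F (c * (x - y)) := fun c => by
      rw [mul_sub, sub_eq_neg_add, AddChar.map_add_eq_mul]; ring
    simp only [h1, ← Finset.mul_sum, SL2Char.sum_psi_left, sub_eq_zero, eq_comm (a := x)]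
    split_ifs
    · have hq : (q : ℂ) ≠ 0 := by simp
      field_simp
    · rw [mul_zero]
  simp only [h, Finset.sum_ite_eq', Finset.mem_univ, if_true]

theorem sum_psi_erase [DecidableEq F] {x : F} (hx : x ≠ 0) :
    ∑ c ∈ Finset.univ.erase (0 : F), psi F (c * x) = -1 := by
  rw [Finset.sum_erase_eq_sub (Finset.mem_univ 0), SL2Char.sum_psi_left, if_neg hx, zero_mul,
    AddChar.map_zero_eq_one, zero_sub]

/-! ### Values -/

theorem ps_dil (α : MulChar F ℂ) (ν : Fˣ) (g : G) : ps α (dil ν g) = ps α g := by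
  classical
  letI := Fintype.ofFinite G
  have hν : (ν : F) ≠ 0 := ν.ne_zero
  rw [ps, Spec.Principal.indFun_eq, Spec.Principal.indFun_eq, coe_dil]
  simp only [Matrix.cons_val', Matrix.cons_val_zero, Matrix.cons_val_one, Matrix.of_apply,
    Matrix.empty_val', Matrix.cons_val_fin_one, mul_eq_zero, Units.ne_zero, false_or]
  congr 1
  refine (Fintype.sum_equiv (Equiv.mulLeft₀ (ν : F) hν) _ _ fun c => ?_).symm
  simp only [Equiv.mulLeft₀_apply, Units.val_inv_eq_inv_val]
  have e1 : (ν : F)⁻¹ * (g : M2) 1 0 * ((ν : F) * c) ^ 2 + ((g : M2) 1 1 - (g : M2) 0 0) * ((ν : F) * c)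
      - (ν : F) * (g : M2) 0 1 =
      (ν : F) * ((g : M2) 1 0 * c ^ 2 + ((g : M2) 1 1 - (g : M2) 0 0) * c - (g : M2) 0 1) := by
    field_simp
  have e2 : (ν : F) * c * ((ν : F)⁻¹ * (g : M2) 1 0) = c * (g : M2) 1 0 := by field_simp
  rw [e1, e2]
  simp only [mul_eq_zero, hν, false_or]

theorem ps_elliptic (α : MulChar F ℂ) {g : G}
    (h : ∀ (c : F) (v : Fin 2 → F), v ≠ 0 → (g : M2).mulVec v ≠ c • v) : ps α g = 0 := by
  classical
  letI := Fintype.ofFinite G
  obtain ⟨h10, hq, -⟩ := GL2Char.elliptic_entries h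
  rw [ps, Spec.Principal.indFun_eq, if_neg h10, zero_add]
  exact Finset.sum_eq_zero fun c _ => if_neg (hq c)

theorem ps_one_diag {g : G} (h01 : (g : M2) 0 1 = 0) (h10 : (g : M2) 1 0 = 0)
    (ha : (g : M2) 0 0 ^ 2 ≠ 1) : ps (1 : MulChar F ℂ) g = 2 := by
  classical
  letI := Fintype.ofFinite G
  have hd := Linear.slTwo_det g
  simp only [h01, zero_mul, sub_zero] at hd
  have hu1 : IsUnit ((g : M2) 0 0) := (left_ne_zero_of_mul_eq_one hd).isUnit
  have hu2 : IsUnit ((g : M2) 1 1) := (right_ne_zero_of_mul_eq_one hd).isUnit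
  have hne : (g : M2) 1 1 - (g : M2) 0 0 ≠ 0 := by
    intro e
    rw [sub_eq_zero] at e
    exact ha (by rw [sq]; nth_rewrite 2 [← e]; exact hd)
  rw [ps, Spec.Principal.indFun_eq, h10, h01, if_pos rfl, MulChar.one_apply hu1]
  simp only [zero_mul, zero_add, sub_zero, mul_zero, mul_eq_zero, hne, false_or]
  rw [Finset.sum_ite_eq', if_pos (Finset.mem_univ _), MulChar.one_apply hu2]
  norm_num

/-- Elliptic elements with the same trace are conjugate. -/
theorem dil_isConj (ν : Fˣ) {g : G}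
    (h : ∀ (c : F) (v : Fin 2 → F), v ≠ 0 → (g : M2).mulVec v ≠ c • v) :
    IsConj g (dil ν g) := by
  obtain ⟨h10, -, hr⟩ := GL2Char.elliptic_entries h
  have hns : ∀ {A : M2}, A 1 0 ≠ 0 → Linear.Classes.Nonscalar A := fun {A} hA c e => hA (by
    rw [e]; simp)
  refine Linear.Classes.isConj_SL_of_trace (hns h10) (hns ?_) ?_ ?_
  · rw [coe_dil]; simpa using h10
  · rw [coe_dil]; simp [Matrix.trace_fin_two]
  · refine Linear.Classes.discr_of_no_root fun r => ?_
    have := hr r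
    rwa [g.det_coe] at this

end Cfsg.Agent.SL2Val
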