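import Cfsg.Agent.SL2Char.OddDegrees
import Cfsg.Agent.SL2Char.Even
import Cfsg.Agent.SL2Val.Basic

/-!
# Identifying the irreducible characters of `SL(2, q)` from their degrees
-/

set_option autoImplicit false
set_option linter.unusedSectionVars false

namespace Cfsg.Agent.SL2Val

open Cfsg
open Cfsg.Agent.SL2Char (mult chiOne chiSt psSet psI rest charDegree_odd)
open scoped MatrixGroups

variable {F : Type*} [Field F] [Fintype F]

local notation "G" => SL(2, F)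
local notation "q" => Fintype.card F

theorem deg_eq {χ : IrrCharacter G} {n : ℕ} (h : (χ : G → ℂ) 1 = n) :
    charDegree (χ : G → ℂ) = n := Char.charDegree_of_eq h

/-- The members of the four kinds of degrees, with their multiplicities. -/
theorem kinds (χ : IrrCharacter G) :
    χ = chiOne F ∧ charDegree (χ : G → ℂ) = 1 ∨
    χ = chiSt F ∧ charDegree (χ : G → ℂ) = q ∨
    χ ∈ psSet F ∧ charDegree (χ : G → ℂ) = q + 1 ∨
    (mult χ 0 = 0 ∧ (∀ c : F, c ≠ 0 → mult χ c = 1) ∧ charDegree (χ : G → ℂ) + 1 = q) ∨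
    Odd q ∧ ((mult χ 0 = 1 ∧ 2 * charDegree (χ : G → ℂ) = q + 1) ∨
      (mult χ 0 = 0 ∧ 2 * charDegree (χ : G → ℂ) + 1 = q)) := by
  classical
  have hq : 2 ≤ q := Fintype.one_lt_card
  by_cases h2 : ringChar F = 2
  · haveI : CharP F 2 := ringChar.eq_iff.1 h2
    obtain ⟨-, -, hrest⟩ := SL2Char.even_data (F := F)
    have hd := SL2Char.charDegree_even χ
    by_cases h1 : χ = chiOne F
    · subst h1
      rw [SL2Char.mult_chiOne, SL2Char.mult_chiOne, if_pos rfl, if_neg one_ne_zero] at hd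
      exact Or.inl ⟨rfl, by omega⟩
    by_cases hs : χ = chiSt F
    · subst hs
      rw [SL2Char.mult_chiSt, SL2Char.mult_chiSt] at hd
      exact Or.inr (Or.inl ⟨rfl, by omega⟩)
    by_cases hp : χ ∈ psSet F
    · rw [SL2Char.mult_psSet hp, SL2Char.mult_psSet hp, if_pos rfl, if_neg one_ne_zero] at hd
      exact Or.inr (Or.inr (Or.inl ⟨hp, by omega⟩))
    obtain ⟨h0, h1'⟩ := hrest χ (SL2Char.mem_rest.2 ⟨h1, hs, hp⟩)
    rw [h0, h1'] at hd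
    exact Or.inr (Or.inr (Or.inr (Or.inl ⟨h0, fun c hc => by rw [SL2Char.mult_even χ hc, h1'],
      by omega⟩)))
  · obtain ⟨ν, hν⟩ := FiniteField.exists_nonsquare h2
    have hodd := SL2Char.odd_card_of_nonsquare hν
    obtain ⟨H, D, W, -, -, -, kH, kD, kW, hall⟩ := SL2Char.odd_classification hν
    rcases hall χ with e | e | e | e | e | e
    · exact Or.inl ⟨e, e ▸ SL2Char.charDegree_chiOne_odd hν⟩
    · exact Or.inr (Or.inl ⟨e, e ▸ SL2Char.charDegree_chiSt_odd hν⟩)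
    · exact Or.inr (Or.inr (Or.inl ⟨e, SL2Char.charDegree_psSet_odd hν e⟩))
    · exact Or.inr (Or.inr (Or.inr (Or.inr ⟨hodd, Or.inl ⟨(kH χ e).2.1, (kH χ e).2.2.2⟩⟩)))
    · exact Or.inr (Or.inr (Or.inr (Or.inr ⟨hodd, Or.inr ⟨(kD χ e).2.1, by
        have := (kD χ e).2.2.2; omega⟩⟩)))
    · obtain ⟨-, h0, hm, hdeg⟩ := kW χ e
      refine Or.inr (Or.inr (Or.inr (Or.inl ⟨h0, fun c hc => ?_, by omega⟩)))
      obtain ⟨h1, h2'⟩ := mul_eq_one.1 hm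
      rcases SL2Char.exists_sq_mul_or hν c hc with ⟨t, rfl⟩ | ⟨t, rfl⟩ <;>
        rw [SL2Char.mult_sq_mul] <;> assumption

theorem eq_chiSt_of_degree {χ : IrrCharacter G} (h : (χ : G → ℂ) 1 = (q : ℂ)) : χ = chiSt F := by
  have hd := deg_eq h
  have hq : 2 ≤ q := Fintype.one_lt_card
  rcases kinds χ with ⟨-, e⟩ | ⟨e, -⟩ | ⟨-, e⟩ | ⟨-, -, e⟩ | ⟨-, ⟨-, e⟩ | ⟨-, e⟩⟩
  all_goals first | exact e | omega

theorem mem_psSet_of_degree {χ : IrrCharacter G} (h : (χ : G → ℂ) 1 = (q : ℂ) + 1) :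
    χ ∈ psSet F := by
  have hd := deg_eq (n := q + 1) (by rw [h]; push_cast; rfl)
  have hq : 2 ≤ q := Fintype.one_lt_card
  rcases kinds χ with ⟨-, e⟩ | ⟨-, e⟩ | ⟨e, -⟩ | ⟨-, -, e⟩ | ⟨-, ⟨-, e⟩ | ⟨-, e⟩⟩
  all_goals first | exact e | omega

theorem mult_of_degree_sub {χ : IrrCharacter G} (hq4 : 4 ≤ q) (h : (χ : G → ℂ) 1 = (q : ℂ) - 1) :
    mult χ 0 = 0 ∧ ∀ c : F, c ≠ 0 → mult χ c = 1 := by
  have hd := deg_eq (n := q - 1) (by rw [h, Nat.cast_sub (by omega), Nat.cast_one])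
  rcases kinds χ with ⟨-, e⟩ | ⟨-, e⟩ | ⟨-, e⟩ | ⟨e, e', -⟩ | ⟨-, ⟨-, e⟩ | ⟨-, e⟩⟩
  all_goals first | exact ⟨e, e'⟩ | omega

theorem mult_zero_of_degree {χ : IrrCharacter G} (hq5 : 5 ≤ q)
    (h : (χ : G → ℂ) 1 = (q : ℂ) - 1 ∨ Odd q ∧ (χ : G → ℂ) 1 = (((q - 1) / 2 : ℕ) : ℂ)) :
    mult χ 0 = 0 := by
  rcases h with h | ⟨ho, h⟩
  · exact (mult_of_degree_sub (by omega) h).1
  have hd := deg_eq h
  have ho' := Nat.odd_iff.1 ho
  rcases kinds χ with ⟨-, e⟩ | ⟨-, e⟩ | ⟨-, e⟩ | ⟨e, -, -⟩ | ⟨-, ⟨-, e⟩ | ⟨e, -⟩⟩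
  all_goals first | exact e | omega

end Cfsg.Agent.SL2Val
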